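import Cfsg.Agent.H791.Gen.DerCount
import Cfsg.Agent.H450.GenU.Main
import Cfsg.Agent.H961.LinePSU3

/-!
# TEAM GEN: the row `U₃(3)` of the transitive linear groups (helper791)

* `psu_pair` : `PSU₃(q)` is generated by a Sylow subgroup in defining characteristic and an involution;
* `u33` : the field `LinRows.u33`.
-/

set_option autoImplicit false
set_option linter.unusedSectionVars false

namespace Cfsg.Agent.H791.Gen.U33

open Cfsg Subgroup Matrix

universe u v

section Pair

open Cfsg.Agent.H961.LinePSU3 Cfsg.Agent.LieRecognition.PSUThreeSylow Cfsg.Agent.LieClassical.HermSiegel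
  Cfsg.Agent.H137.Herm

variable {F : Type u} [Field F] [Fintype F] {q : ℕ}

/-- the stabiliser of a vector -/
def Pe (q : ℕ) (e : Fin 3 → F) : Subgroup (SU 3 F q) where
  carrier := {g | act g e = e}
  one_mem' := act_one e
  mul_mem' := by
    intro g k hg hk
    change act (g * k) e = e
    rw [act_mul]
    have hg' : act g e = e := hg
    have hk' : act k e = e := hk
    rw [hk', hg']
  inv_mem' := by
    intro g hg
    have hg' : act g e = e := hg
    change act g⁻¹ e = e
    nth_rewrite 1 [← hg']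
    rw [act_inv_act]

theorem mem_Pe {e : Fin 3 → F} {g : SU 3 F q} : g ∈ Pe q e ↔ act g e = e := Iff.rfl

/-- `SU₃(q)` is generated by a Sylow subgroup in defining characteristic and an involution -/
theorem su_pair {r f : ℕ} [Fact r.Prime] [CharP F r] (hF : Fintype.card F = q ^ 2) (hqr : q = r ^ f) (hq : 2 ≤ q) :
    ∃ (P : Subgroup (SU 3 F q)) (w : SU 3 F q), IsPGroup r P ∧ w * w = 1 ∧ closure ((P : Set (SU 3 F q)) ∪ {w}) = ⊤ := by
  obtain ⟨σ, hs, hσ, T, T', h, hT⟩ := exists_T_all (r := r) hF hqr hq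
  have h' : T' * T = 1 := mul_eq_one_comm.mp h
  -- the form
  have hform : ∀ u v : Fin 3 → F, hermForm 3 F q (T *ᵥ u) (T *ᵥ v) = u ⬝ᵥ (Jm F *ᵥ fun i => σ (v i)) := by
    intro u v
    have h1 : ∀ u v : Fin 3 → F, hermForm 3 F q u v = u ⬝ᵥ (fun i => σ (v i)) := by
      intro u v
      simp only [hermForm, dotProduct, hs]
    have h2 : (fun i => σ ((T *ᵥ v) i)) = T.map σ *ᵥ (fun i => σ (v i)) := by
      funext i
      simp [Matrix.mulVec, dotProduct, map_sum, map_mul]
    rw [h1, h2, ← hT, ← Matrix.mulVec_mulVec, Matrix.dotProduct_mulVec u, Matrix.vecMul_transpose]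
  -- the Weyl element
  obtain ⟨w, hw⟩ := exists_of_mem hs h hT (k := ⟨-Jm F, by rw [Matrix.det_fin_three]; simp [Jm]⟩) (by
    change (-Jm F)ᵀ * Jm F * (-Jm F).map σ = Jm F
    have h1 : (-Jm F).map σ = -Jm F := by
      ext i j
      fin_cases i <;> fin_cases j <;> simp [Jm]
    rw [h1, Matrix.transpose_neg, Jm_transpose, Matrix.neg_mul, Jm_mul_Jm, neg_mul_neg, one_mul])
  have hwm : T' * w.1.1 * T = -Jm F := hw
  have hwm' : w.1.1 = T * (-Jm F) * T' := by
    rw [← hwm]
    calc w.1.1 = (T * T') * w.1.1 * (T * T') := by rw [h, one_mul, mul_one]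
      _ = T * (T' * w.1.1 * T) * T' := by simp only [Matrix.mul_assoc]
  have hww : w * w = 1 := by
    apply Subtype.ext
    apply Subtype.ext
    change w.1.1 * w.1.1 = 1
    rw [hwm']
    calc T * (-Jm F) * T' * (T * (-Jm F) * T') = T * ((-Jm F) * (T' * T) * (-Jm F)) * T' := by
          simp only [Matrix.mul_assoc]
      _ = T * T' := by rw [h', mul_one, neg_mul_neg, Jm_mul_Jm, mul_one]
      _ = 1 := h
  set e : Fin 3 → F := T *ᵥ e1 F with he
  have hee : hermForm 3 F q e e = 0 := by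
    rw [he, hform]
    simp [Jm, e1, Matrix.mulVec, dotProduct, Fin.sum_univ_three]
  have hf : act w e = T *ᵥ (-e3 F) := by
    change w.1.1 *ᵥ e = _
    rw [hwm', he, Matrix.mulVec_mulVec]
    have h1 : T * (-Jm F) * T' * T = T * (-Jm F) := by rw [Matrix.mul_assoc, h', mul_one]
    rw [h1, ← Matrix.mulVec_mulVec]
    congr 1
    ext i
    fin_cases i <;> simp [Jm, e1, e3, Matrix.mulVec, dotProduct, Fin.sum_univ_three]
  have hff : hermForm 3 F q (act w e) (act w e) = 0 := by rw [herm_act, hee]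
  have hef : hermForm 3 F q e (act w e) ≠ 0 := by
    rw [hf, he, hform]
    simp [Jm, e1, e3, Matrix.mulVec, dotProduct, Fin.sum_univ_three]
  refine ⟨Pe q e, w, ?_, hww, ?_⟩
  · rintro ⟨g, hg⟩
    refine ⟨2, Subtype.ext ?_⟩
    have hg' : g.1.1 *ᵥ (T *ᵥ e1 F) = T *ᵥ e1 F := hg
    have h1 := unip (r := r) _ (symm_mem hs h hT g) (by
      change (T' * g.1.1 * T) *ᵥ e1 F = e1 F
      rw [← Matrix.mulVec_mulVec, ← Matrix.mulVec_mulVec, hg', Matrix.mulVec_mulVec, h', Matrix.one_mulVec])
    rw [← map_pow] at h1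
    apply Subtype.ext
    exact (MulEquiv.map_eq_one_iff _).1 h1
  · set K := closure ((Pe q e : Set (SU 3 F q)) ∪ {w}) with hK
    have hPK : Pe q e ≤ K := fun x hx => subset_closure (Or.inl hx)
    have hwK : w ∈ K := subset_closure (Or.inr rfl)
    refine eq_top_of_full (hF := hF) le_rfl hee hff hef ?_ ?_
    · intro x μ hx
      exact ⟨hx, hPK (act_siegel_self hF hx)⟩
    · intro x μ hx
      refine ⟨hx, ?_⟩
      set s := siegel hF (act w e) x μ hx with hs'
      have h1 : w⁻¹ * s * w ∈ Pe q e := by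
        rw [mem_Pe, act_mul, act_mul, hs', act_siegel_self hF hx, act_inv_act]
      have h2 := mul_mem (mul_mem hwK (hPK h1)) (inv_mem hwK)
      have h3 : w * (w⁻¹ * s * w) * w⁻¹ = s := by group
      rwa [h3] at h2

/-- a quotient of a group generated by a `p`-group and an involution -/
theorem pair_map {r : ℕ} {A B : Type*} [Group A] [Group B] (π : A →* B) (hπ : Function.Surjective π)
    (h : ∃ (P : Subgroup A) (w : A), IsPGroup r P ∧ w * w = 1 ∧ closure ((P : Set A) ∪ {w}) = ⊤) :
    ∃ (P : Subgroup B) (w : B), IsPGroup r P ∧ w * w = 1 ∧ closure ((P : Set B) ∪ {w}) = ⊤ := by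
  obtain ⟨P, w, hP, hw, hc⟩ := h
  refine ⟨P.map π, π w, hP.map π, by rw [← map_mul, hw, map_one], ?_⟩
  have h1 : (closure ((P : Set A) ∪ {w})).map π = closure (((P.map π : Subgroup B) : Set B) ∪ {π w}) := by
    rw [MonoidHom.map_closure, Set.image_union, Set.image_singleton, Subgroup.coe_map]
  rw [← h1, hc, ← MonoidHom.range_eq_map, MonoidHom.range_eq_top.2 hπ]

theorem psu_pair {r f : ℕ} [Fact r.Prime] [CharP F r] (hF : Fintype.card F = q ^ 2) (hqr : q = r ^ f) (hq : 2 ≤ q) :
    ∃ (P : Subgroup (PSU 3 F q)) (w : PSU 3 F q), IsPGroup r P ∧ w * w = 1 ∧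
      closure ((P : Set (PSU 3 F q)) ∪ {w}) = ⊤ :=
  pair_map (QuotientGroup.mk' (center (SU 3 F q))) (QuotientGroup.mk'_surjective _) (su_pair hF hqr hq)

end Pair

section Row

open Cfsg.Agent.H891.Gen Cfsg.Agent.H440.TwoGen Cfsg.Agent.H50.Her Module

/-- **TEAM GEN**: `U₃(3) ≤ G ≤ G₂(2)` in dimension six over the field with two elements -/
theorem u33 (V : Type u) [AddCommGroup V] [Module (ZMod 2) V] [Finite V]
    (G A L : Subgroup (V ≃ₗ[ZMod 2] V)) (htr : ∀ v w : V, v ≠ 0 → w ≠ 0 → ∃ g ∈ G, g v = w) (_hA : MaxAb G A)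
    (hL : Perf G A L) (_hq : Quasi A L) (h6 : finrank (ZMod 2) V = 6) (he : Nat.card (endAlg L) = 2)
    (hE : ∃ (E : Type) (_ : Field E) (_ : Fintype E), Fintype.card E = 9 ∧ Nonempty (L ≃* Cfsg.PSU 3 E 3)) :
    LGood G := by
  classical
  obtain ⟨E, _, _, hE9, ⟨e⟩⟩ := hE
  have hF : Fintype.card E = 3 ^ 2 := hE9
  have hfin : Finite (V ≃ₗ[ZMod 2] V) := DFunLike.finite _
  have hnt : Nontrivial V := Module.nontrivial_of_finrank_pos (R := ZMod 2) (by omega)
  -- the centraliser
  have hA1 : A = ⊥ := by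
    rw [Subgroup.eq_bot_iff_forall]
    intro a ha
    by_contra ha1
    have h1 : a ∈ G ⊓ centralizer (L : Set (V ≃ₗ[ZMod 2] V)) := by rw [hL.centralizer_eq]; exact ha
    have h2 : (a : End (ZMod 2) V) ∈ endAlg L := by
      rw [mem_endAlg]
      intro g hg v
      exact (DFunLike.congr_fun (mem_centralizer_iff.1 (mem_inf.1 h1).2 g hg) v).symm
    have h3 : (⟨(a : End (ZMod 2) V), h2⟩ : endAlg L) ≠ 0 := by
      intro h0
      obtain ⟨v, hv⟩ := exists_ne (0 : V)
      have h4 : (a : End (ZMod 2) V) = 0 := congrArg Subtype.val h0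
      apply hv
      apply a.injective
      rw [map_zero]
      exact LinearMap.congr_fun h4 v
    have h4 : (⟨(a : End (ZMod 2) V), h2⟩ : endAlg L) ≠ 1 := by
      intro h0
      have h4 : (a : End (ZMod 2) V) = 1 := congrArg Subtype.val h0
      apply ha1
      ext v
      exact LinearMap.congr_fun h4 v
    have h5 : (0 : endAlg L) ≠ 1 := by
      intro h0
      obtain ⟨v, hv⟩ := exists_ne (0 : V)
      have h6 : (0 : End (ZMod 2) V) = 1 := congrArg Subtype.val h0
      exact hv (LinearMap.congr_fun h6 v).symm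
    have hfe : Finite (endAlg L) := Nat.finite_of_card_ne_zero (by omega)
    have : Fintype (endAlg L) := Fintype.ofFinite _
    have h6 : ({(0 : endAlg L), 1, ⟨(a : End (ZMod 2) V), h2⟩} : Finset (endAlg L)).card = 3 := by
      rw [Finset.card_eq_three]
      exact ⟨_, _, _, h5, Ne.symm h3, Ne.symm h4, rfl⟩
    have h7 := Finset.card_le_univ ({(0 : endAlg L), 1, ⟨(a : End (ZMod 2) V), h2⟩} : Finset (endAlg L))
    rw [h6, ← Nat.card_eq_fintype_card, he] at h7
    omega
  -- the normal subgroup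
  have hN : (L.subgroupOf G).Normal := by
    constructor
    intro n hn g
    rw [mem_subgroupOf] at hn ⊢
    exact hL.nor g.1 g.2 n.1 hn
  have hcN : centralizer ((L.subgroupOf G : Subgroup ↥G) : Set ↥G) = ⊥ := by
    rw [Subgroup.eq_bot_iff_forall]
    intro g hg
    have h1 : g.1 ∈ G ⊓ centralizer (L : Set (V ≃ₗ[ZMod 2] V)) := by
      refine mem_inf.2 ⟨g.2, ?_⟩
      rw [mem_centralizer_iff]
      intro l hl
      exact congrArg Subtype.val (mem_centralizer_iff.1 hg ⟨l, hL.le hl⟩ (mem_subgroupOf.2 hl))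
    rw [hL.centralizer_eq, hA1, mem_bot] at h1
    exact Subtype.ext h1
  let e' : ↥(L.subgroupOf G) ≃* PSU 3 E 3 := (subgroupOfEquivOfLe hL.le).trans e
  constructor
  · obtain ⟨S, hS, ⟨φ⟩⟩ := Cfsg.Agent.H450.GenU.exists_sub (L.subgroupOf G) hcN e'
    exact (Cfsg.Agent.H450.GenU.twoGen_of_inn hF le_rfl S hS).of_equiv φ.symm
  · -- the characteristic
    have : Fact (Nat.Prime 3) := ⟨Nat.prime_three⟩
    have hch : CharP E 3 := by
      obtain ⟨r, hr⟩ := CharP.exists E
      obtain ⟨n, hrp, hn⟩ := FiniteField.card E r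
      have h1 : r ∣ 3 ^ 2 := by rw [← hF, hn]; exact dvd_pow_self r n.ne_zero
      have h2 : r = 3 := (Nat.prime_dvd_prime_iff_eq hrp Nat.prime_three).1 (hrp.dvd_of_dvd_pow h1)
      rwa [h2] at hr
    obtain ⟨P, w, hP, hw, hc⟩ := pair_map e'.symm.toMonoidHom e'.symm.surjective
      (psu_pair (F := E) (r := 3) (f := 1) hF (by norm_num) (by norm_num))
    have h2V : ∀ v : V, v + v = 0 := by
      intro v
      rw [← two_smul (ZMod 2) v, show (2 : ZMod 2) = 0 by decide, zero_smul]
    refine DerCount.small_of h2V (N := L.subgroupOf G) (P := P.map (L.subgroupOf G).subtype) (w := (w : ↥G)) hN ?_ ?_ ?_ ?_ ?_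
    · -- no fixed vectors
      intro v hv
      by_contra hv0
      apply hL.not_le
      intro l hl
      rw [hA1, mem_bot]
      ext x
      by_cases hx : x = 0
      · rw [hx, map_zero, map_zero]
      obtain ⟨g, hg, rfl⟩ := htr v x hv0 hx
      have h1 : g⁻¹ * l * g ∈ L := by
        have := hL.nor g⁻¹ (inv_mem hg) l hl
        rwa [inv_inv] at this
      have h2 := hv ⟨_, hL.le h1⟩ (mem_subgroupOf.2 h1)
      have h3 : (g⁻¹ * l * g) v = v := h2
      have h4 : g ((g⁻¹ * l * g) v) = l (g v) := by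
        change (g * (g⁻¹ * l * g)) v = (l * g) v
        congr 1
        group
      rw [← h4, h3]
      rfl
    · have h1 : IsPGroup 3 ↥(P.map (L.subgroupOf G).subtype) := hP.map _
      obtain ⟨n, hn⟩ := IsPGroup.iff_card.1 h1
      rw [hn]
      exact Odd.pow (by decide)
    · exact congrArg Subtype.val hw
    · by_cases h1 : (w : ↥G) = 1
      · exact Or.inl h1
      · right
        by_contra hcon
        push Not at hcon
        apply h1
        apply Subtype.ext
        ext v
        exact hcon v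
    · have h1 : (closure ((P : Set ↥(L.subgroupOf G)) ∪ {w})).map (L.subgroupOf G).subtype =
          closure (((P.map (L.subgroupOf G).subtype : Subgroup ↥G) : Set ↥G) ∪ {(w : ↥G)}) := by
        rw [MonoidHom.map_closure, Set.image_union, Set.image_singleton, Subgroup.coe_map]
        rfl
      rw [← h1, hc, ← MonoidHom.range_eq_map, Subgroup.range_subtype]

end Row

end Cfsg.Agent.H791.Gen.U33
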