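import Cfsg.Agent.H891.Gen.LinRows

/-!
# TEAM GEN: counting derivations (helper791)

* `small_of` : `Small H V` for a module `V` of exponent two if a normal subgroup `N` without fixed vectors is
  contained in `⟨P, w⟩` with `|P|` odd and `w` an involution.
-/

set_option autoImplicit false

namespace Cfsg.Agent.H791.Gen.DerCount

open Subgroup Cfsg.Agent.H891.Gen

universe u v

variable {H : Type u} [Group H] {V : Type v} [AddCommGroup V] [DistribMulAction H V]

/-- derivations -/
abbrev Der (H : Type u) [Group H] (V : Type v) [AddCommGroup V] [DistribMulAction H V] : Type (max u v) :=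
  {z : H → V // ∀ g h : H, z (g * h) = z g + g • z h}

theorem der_one (z : Der H V) : z.1 1 = 0 := by
  have h := z.2 1 1
  rw [mul_one, one_smul] at h
  exact left_eq_add.1 h

theorem der_inv (z : Der H V) (g : H) : z.1 g⁻¹ = -(g⁻¹ • z.1 g) := by
  have h := z.2 g⁻¹ g
  rw [inv_mul_cancel, der_one] at h
  exact eq_neg_of_add_eq_zero_left h.symm

theorem eq_on_closure {z z' : Der H V} {s : Set H} (h : ∀ x ∈ s, z.1 x = z'.1 x) :
    ∀ x ∈ closure s, z.1 x = z'.1 x := by
  intro x hx
  induction hx using closure_induction with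
  | mem x hx => exact h x hx
  | one => rw [der_one, der_one]
  | mul x y _ _ hx hy => rw [z.2, z'.2, hx, hy]
  | inv x _ hx => rw [der_inv, der_inv, hx]

theorem eq_of_normal {N : Subgroup H} (hN : N.Normal) (h0 : ∀ v : V, (∀ n ∈ N, n • v = v) → v = 0) {z z' : Der H V}
    (h : ∀ x ∈ N, z.1 x = z'.1 x) : z = z' := by
  apply Subtype.ext
  funext g
  rw [← sub_eq_zero]
  apply h0
  intro n hn
  have h1 : z.1 (n * g) = z.1 n + n • z.1 g := z.2 _ _
  have h2 : z.1 (n * g) = z.1 g + g • z.1 (g⁻¹ * n * g) := by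
    rw [← z.2]; group
  have h1' : z'.1 (n * g) = z'.1 n + n • z'.1 g := z'.2 _ _
  have h2' : z'.1 (n * g) = z'.1 g + g • z'.1 (g⁻¹ * n * g) := by
    rw [← z'.2]; group
  have h3 : g⁻¹ * n * g ∈ N := by
    have := hN.conj_mem n hn g⁻¹
    rwa [inv_inv] at this
  rw [h2, h n hn, h _ h3] at h1
  rw [h2'] at h1'
  rw [smul_sub]
  have h4 : n • z.1 g = z.1 g + g • z'.1 (g⁻¹ * n * g) - z'.1 n := by rw [h1]; abel
  have h5 : n • z'.1 g = z'.1 g + g • z'.1 (g⁻¹ * n * g) - z'.1 n := by rw [h1']; abel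
  rw [h4, h5]
  abel

/-- a derivation is inner on a subgroup of odd order -/
theorem inner_of_odd [Finite H] (P : Subgroup H) (hP : Odd (Nat.card ↥P)) (h2 : ∀ v : V, v + v = 0) (z : Der H V) :
    ∃ v : V, ∀ x ∈ P, z.1 x = v - x • v := by
  classical
  have : Fintype ↥P := Fintype.ofFinite _
  refine ⟨∑ y : ↥P, z.1 y, fun x hx => ?_⟩
  have h1 : x • (∑ y : ↥P, z.1 y) = ∑ y : ↥P, z.1 y - (Nat.card ↥P) • z.1 x := by
    rw [Finset.smul_sum]
    have h3 : ∀ y : ↥P, x • z.1 y = z.1 (x * y) - z.1 x := fun y => by rw [z.2]; abel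
    simp_rw [h3]
    rw [Finset.sum_sub_distrib, Finset.sum_const, Finset.card_univ, Nat.card_eq_fintype_card]
    congr 1
    exact Fintype.sum_equiv (Equiv.mulLeft (⟨x, hx⟩ : ↥P)) _ _ (fun y => rfl)
  rw [h1]
  obtain ⟨k, hk⟩ := hP
  rw [hk, add_smul, mul_comm, mul_smul, two_smul, h2, smul_zero, zero_add, one_smul]
  abel

theorem small_of [Finite H] [Finite V] [Nontrivial V] (h2 : ∀ v : V, v + v = 0) {N P : Subgroup H} {w : H}
    (hN : N.Normal) (h0 : ∀ v : V, (∀ n ∈ N, n • v = v) → v = 0) (hP : Odd (Nat.card ↥P)) (hww : w * w = 1)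
    (hw : w = 1 ∨ ∃ v : V, w • v ≠ v) (hgen : N ≤ closure ((P : Set H) ∪ {w})) : Small H V := by
  classical
  choose f hf using fun z : Der H V => inner_of_odd P hP h2 z
  let K : Set V := {v | ∃ z : Der H V, z.1 w = v}
  have hK : K ≠ Set.univ := by
    rcases hw with rfl | ⟨v, hv⟩
    · obtain ⟨v, hv⟩ := exists_ne (0 : V)
      intro h
      have h1 : v ∈ K := by rw [h]; trivial
      obtain ⟨z, hz⟩ := h1
      rw [der_one] at hz
      exact hv hz.symm
    · intro h
      have h1 : v ∈ K := by rw [h]; trivial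
      obtain ⟨z, hz⟩ := h1
      have h3 := z.2 w w
      rw [hww, der_one, hz] at h3
      apply hv
      have h4 : w • v = -v := (neg_eq_of_add_eq_zero_right h3.symm).symm
      rw [h4]
      exact neg_eq_of_add_eq_zero_left (h2 v)
  let F : Der H V → V × ↥K := fun z => (f z, ⟨z.1 w, z, rfl⟩)
  have hF : Function.Injective F := by
    intro z z' h
    have h3 : f z = f z' := congrArg Prod.fst h
    have h4 : z.1 w = z'.1 w := congrArg (fun x => x.2.1) h
    refine eq_of_normal hN h0 fun x hx => eq_on_closure (s := (P : Set H) ∪ {w}) ?_ x (hgen hx)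
    rintro y (hy | hy)
    · rw [hf z y hy, hf z' y hy, h3]
    · rw [Set.mem_singleton_iff] at hy
      rw [hy, h4]
  have h5 : Nat.card (Der H V) ≤ Nat.card V * Nat.card ↥K := by
    have := Nat.card_le_card_of_injective F hF
    rwa [Nat.card_prod] at this
  have h6 : Nat.card ↥K < Nat.card V := by
    rw [Nat.card_coe_set_eq, ← Set.ncard_univ]
    exact Set.ncard_lt_ncard (lt_of_le_of_ne (Set.subset_univ _) hK) (Set.toFinite _)
  have h7 : 0 < Nat.card V := Nat.card_pos
  change Nat.card (Der H V) < Nat.card V ^ 2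
  rw [pow_two]
  exact h5.trans_lt (Nat.mul_lt_mul_of_pos_left h6 h7)

end Cfsg.Agent.H791.Gen.DerCount
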